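import Cfsg.Agent.Lib.Compute.HeCent.Data

/-!
# The centralizer of an involution of the presented Held group: the stabilizer chains
-/

set_option autoImplicit false
set_option maxRecDepth 1000000

namespace Cfsg.Agent.Lib.Compute.HeCent

open Cfsg.Agent.Lib.Compute.PermCert

theorem zA3 : levelCheck 9 511 336 zAL3 [] = true := by decide +kernel
theorem zA2 : levelCheck 9 511 336 zAL2 [zAL3] = true := by decide +kernel
theorem zA1 : levelCheck 9 511 336 zAL1 [zAL2, zAL3] = true := by decide +kernel
theorem zA0 : levelCheck 9 511 336 zAL0 [zAL1, zAL2, zAL3] = true := by decide +kernel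

theorem zAChk : chainCheck 9 511 336 zA = true := by
  simp only [zA, chainCheck, zA0, zA1, zA2, zA3, Bool.and_self]

theorem zM3 : levelCheck 5 31 31 zML3 [] = true := by decide +kernel
theorem zM2 : levelCheck 5 31 31 zML2 [zML3] = true := by decide +kernel
theorem zM1 : levelCheck 5 31 31 zML1 [zML2, zML3] = true := by decide +kernel
theorem zM0 : levelCheck 5 31 31 zML0 [zML1, zML2, zML3] = true := by decide +kernel

theorem zMChk : chainCheck 5 31 31 zM = true := by
  simp only [zM, chainCheck, zM0, zM1, zM2, zM3, Bool.and_self]

theorem zD3 : levelCheck 9 511 367 zDL3 [] = true := by decide +kernel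
theorem zD2 : levelCheck 9 511 367 zDL2 [zDL3] = true := by decide +kernel
theorem zD1 : levelCheck 9 511 367 zDL1 [zDL2, zDL3] = true := by decide +kernel
theorem zD0 : levelCheck 9 511 367 zDL0 [zDL1, zDL2, zDL3] = true := by decide +kernel

theorem zDChk : chainCheck 9 511 367 zD = true := by
  simp only [zD, chainCheck, zD0, zD1, zD2, zD3, Bool.and_self]

theorem zACard : Nat.card (chainGroup 9 511 336 zA) = 21504 := by
  rw [chain_card zAChk]; decide +kernel
theorem zMCard : Nat.card (chainGroup 5 31 31 zM) = 21504 := by
  rw [chain_card zMChk]; decide +kernel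
theorem zDCard : Nat.card (chainGroup 9 511 367 zD) = 21504 := by
  rw [chain_card zDChk]; decide +kernel

end Cfsg.Agent.Lib.Compute.HeCent
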