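import Cfsg.Agent.Lib.Compute.HeCent.Chains
import Cfsg.Agent.Lib.Compute.HeCent.Abs
import Cfsg.Agent.Lib.Compute.BlockIso

/-!
# The centralizer of an involution of the presented Held group

The letter `d` of the presentation has a centralizer of order at most `21504`: there are `3825` conjugates of `d` in the stabilizer
of the coset `0`, and `d` fixes `42` cosets. Two words in the letters commute with `d` and act on an orbit of length `336`
as a group of order `21504`, which is also the group of two matrices commuting with a transvection of `SL(5,2)` on the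
`31` nonzero vectors: both are images of one permutation group of degree `367`.
-/

set_option autoImplicit false
set_option maxRecDepth 100000

namespace Cfsg.Agent.Lib.Compute.HeCent

open Matrix
open Cfsg.Agent.Lib.Compute.PermCert Cfsg.Agent.Lib.Compute.BlockIso
open Cfsg.Agent.Lib.Compute.ToddCoxeterCore Cfsg.Agent.Lib.Compute.ToddCoxeterPresented
open Cfsg.Agent.Lib.Compute.TC Cfsg.Agent.Lib.Compute.TCChain

/-! ### The presented group on the cosets -/

/-- The presented group. -/
abbrev P : Type := PresentedGroup He1.RR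
/-- The cosets as a type. -/
abbrev Om : Type := Fin He1.cfg.N
/-- The action on the cosets. -/
noncomputable abbrev phi : P →* Equiv.Perm Om := phiG He1.hR He1.small He1.big He1.hgens
/-- The letters. -/
noncomputable abbrev el : ℕ → P := elG He1.D He1.RR
/-- The letters on the cosets. -/
noncomputable abbrev ev : ℕ → Bool → ℕ → ℕ := ev0 He1.cfg

/-- A word in the letters. -/
def pw (u : List ℕ) : PE := u.foldr (fun j e => PE.mul (.lt j) e) .one

theorem hev : EvOK (fun j => phi (el j)) ev := ev0_ok He1.hR He1.small He1.big He1.hgens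

theorem app_eq (e : PE) (i : Om) : ((phi (e.el el)) i : ℕ) = e.ev ev true i := by
  rw [PE.el_map]
  exact ((PE.ev_spec hev e i).1).symm

theorem el_eq (hinj : Function.Injective phi) (e1 e2 : PE)
    (h : allB (fun i => Nat.beq (e1.ev ev true i) (e2.ev ev true i)) 2058 = true) : e1.el el = e2.el el := by
  apply hinj
  ext i
  rw [app_eq, app_eq]
  exact Nat.eq_of_beq_eq_true ((allB_iff _ _).1 h i i.2)

/-- The first generator of the centralizer. -/
noncomputable def X : P := (pw wX).el el
/-- The second generator of the centralizer. -/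
noncomputable def Y : P := (pw wY).el el
/-- The involution. -/
noncomputable def d : P := el 3

theorem cX : allB (fun i => Nat.beq ((PE.mul (pw wX) (.lt 3)).ev ev true i) ((PE.mul (.lt 3) (pw wX)).ev ev true i)) 2058 = true := by
  decide +kernel
theorem cY : allB (fun i => Nat.beq ((PE.mul (pw wY) (.lt 3)).ev ev true i) ((PE.mul (.lt 3) (pw wY)).ev ev true i)) 2058 = true := by
  decide +kernel
theorem cd : allB (fun i => Nat.beq ((PE.mul (.lt 3) (.lt 3)).ev ev true i) (PE.one.ev ev true i)) 2058 = true := by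
  decide +kernel

theorem hXd (hinj : Function.Injective phi) : X * d = d * X :=
  el_eq hinj (PE.mul (pw wX) (.lt 3)) (PE.mul (.lt 3) (pw wX)) cX
theorem hYd (hinj : Function.Injective phi) : Y * d = d * Y :=
  el_eq hinj (PE.mul (pw wY) (.lt 3)) (PE.mul (.lt 3) (pw wY)) cY

theorem d_sq (hinj : Function.Injective phi) : d * d = 1 :=
  el_eq hinj (PE.mul (.lt 3) (.lt 3)) PE.one cd

theorem d_moves : (PE.lt 3).ev ev true 2 ≠ 2 := by decide +kernel

theorem d_ne_one : d ≠ 1 := by
  intro h
  have h1 := app_eq (.lt 3) ⟨2, (by norm_num : 2 < 2058)⟩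
  have h2 : (PE.lt 3).el el = 1 := h
  rw [h2] at h1
  exact d_moves h1.symm

theorem ord_d (hinj : Function.Injective phi) : orderOf d = 2 :=
  orderOf_eq_prime (by rw [pow_two]; exact d_sq hinj) d_ne_one

/-! ### The orbit of length 336 -/

/-- The check of a generator on the labels. -/
noncomputable def lbChk (u : List ℕ) (e : Elt) (i : ℕ) : Bool :=
  Bool.rec (motive := fun _ => Bool) true
    (Nat.beq (lb ((pw u).ev ev true i)) (get 9 511 e.f (lb i))) (Nat.blt (lb i) 336)

theorem chkX : allB (lbChk wX xi1) 2058 = true := by decide +kernel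
theorem chkY : allB (lbChk wY xi2) 2058 = true := by decide +kernel
theorem rpOK : allB (fun y => Nat.blt (rpc y) 2058 && Nat.beq (lb (rpc y)) y) 336 = true := by decide +kernel

theorem val_xi1 : validB 9 511 336 xi1 = true := by decide +kernel
theorem val_xi2 : validB 9 511 336 xi2 = true := by decide +kernel

/-- The partial labelling of the cosets. -/
def lF (i : Om) : Option (Fin 336) := if h : lb i < 336 then some ⟨lb i, h⟩ else none

theorem lF_eq {i : Om} {y : Fin 336} : lF i = some y ↔ lb i = y := by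
  unfold lF
  split_ifs with h
  · constructor
    · intro h1
      rw [← Option.some.inj h1]
    · intro h1
      congr 1
      exact Fin.ext h1
  · constructor
    · intro h1; cases h1
    · intro h1
      exact absurd (by rw [h1]; exact y.2) h

theorem lF_surj (y : Fin 336) : ∃ i, lF i = some y := by
  have h := (allB_iff _ _).1 rpOK y y.2
  simp only [Bool.and_eq_true, Nat.blt_eq, Nat.beq_eq] at h
  exact ⟨⟨rpc y, h.1⟩, lF_eq.2 h.2⟩

theorem act_lb {u : List ℕ} {e : Elt} (hc : allB (lbChk u e) 2058 = true) (he : validB 9 511 336 e = true)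
    (i : Om) (y : Fin 336) (hi : lF i = some y) :
    lF (phi ((pw u).el el) i) = some (permOf 9 511 336 e y) := by
  have h1 := (allB_iff _ _).1 hc i i.2
  have hy := lF_eq.1 hi
  unfold lbChk at h1
  rw [hy] at h1
  have h2 : Nat.blt (y : ℕ) 336 = true := by simp [Nat.blt_eq, y.2]
  rw [h2] at h1
  have h3 := Nat.eq_of_beq_eq_true h1
  rw [lF_eq, permOf_apply he, app_eq, h3]

/-- The image of the subgroup on the orbit. -/
theorem exists_psiA [Finite P] : ∃ ψ : Subgroup.closure ({X, Y} : Set P) →* Equiv.Perm (Fin 336),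
    ψ.range = chainGroup 9 511 336 zA := by
  show ∃ ψ : Subgroup.closure ({X, Y} : Set P) →* Equiv.Perm (Fin 336),
    ψ.range = Subgroup.closure {x | ∃ e ∈ [xi1, xi2], permOf 9 511 336 e = x}
  refine range_of_label phi lF lF_surj _ _ ?_ ?_
  · rintro a (rfl | rfl)
    · exact ⟨_, ⟨xi1, by simp, rfl⟩, act_lb chkX val_xi1⟩
    · exact ⟨_, ⟨xi2, by simp, rfl⟩, act_lb chkY val_xi2⟩
  · rintro _ ⟨e, he, rfl⟩
    simp only [List.mem_cons, List.not_mem_nil, or_false] at he
    rcases he with rfl | rfl
    · exact ⟨X, by simp, act_lb chkX val_xi1⟩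
    · exact ⟨Y, by simp, act_lb chkY val_xi2⟩

/-! ### The bound on the centralizer -/

/-- The coset `0`. -/
def x0 : Om := ⟨0, He1.small.hN⟩

/-- The stabilizer of the coset `0`. -/
noncomputable def S0 : Subgroup P := (MulAction.stabilizer (Equiv.Perm Om) x0).comap phi

theorem mem_S0 {g : P} : g ∈ S0 ↔ phi g x0 = x0 := by
  simp [S0, Subgroup.mem_comap, MulAction.mem_stabilizer_iff, Equiv.Perm.smul_def]

theorem card_S0 [Finite P] (hP : Nat.card P = 4030387200) : Nat.card S0 ≤ 1958400 := by
  have h := card_stab_mul_le phi x0 (fun y => by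
    obtain ⟨g, hg⟩ := phi_trans He1.hR He1.small He1.big He1.hgens y.1 y.2
    exact ⟨g, hg⟩) S0 (fun g hg => mem_S0.1 hg)
  rw [hP, Nat.card_eq_fintype_card (α := Om), Fintype.card_fin] at h
  have h' : 2058 * Nat.card S0 ≤ 4030387200 := h
  omega

/-- The generators of a subgroup of the stabilizer. -/
def hgPE (j : ℕ) : PE := pw (hgW.getD j [])
/-- An element of the stabilizer. -/
def nuE (u : List ℕ) : PE := u.foldr (fun j e => PE.mul (hgPE j) e) .one
/-- A conjugate of the involution. -/
def cjE (u : List ℕ) : PE := PE.mul (PE.mul (nuE u) (.lt 3)) (.inv (nuE u))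
/-- The values of a conjugate on three points. -/
noncomputable def sigF (u : List ℕ) : ℕ :=
  frc ((cjE u).ev ev true 31) fun a => frc ((cjE u).ev ev true 1203) fun b => frc ((cjE u).ev ev true 1922) fun c =>
    Nat.add a (Nat.mul 2058 (Nat.add b (Nat.mul 2058 c)))

/-- The values are increasing. -/
noncomputable def sortedFrom (l : List (List ℕ)) : ℕ → Bool :=
  List.rec (motive := fun _ => ℕ → Bool) (fun _ => true)
    (fun u _ ih a => frc (sigF u) fun b => Bool.rec (motive := fun _ => Bool) false (ih b) (Nat.blt a b)) l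

theorem sorted_spec (l : List (List ℕ)) :
    ∀ a, sortedFrom l a = true → (l.map sigF).Pairwise (· < ·) ∧ ∀ x ∈ l, a < sigF x := by
  induction l with
  | nil => intro a _; simp
  | cons u l ih =>
    intro a h
    have h1 : sortedFrom (u :: l) a =
        frc (sigF u) fun b => Bool.rec (motive := fun _ => Bool) false (sortedFrom l b) (Nat.blt a b) := rfl
    rw [h1, frc_eq] at h
    cases h2 : Nat.blt a (sigF u) with
    | false => rw [h2] at h; cases h
    | true =>
      rw [h2] at h
      have h3 := ih _ h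
      have h4 : a < sigF u := by simpa [Nat.blt_eq] using h2
      refine ⟨?_, ?_⟩
      · simp only [List.map_cons, List.pairwise_cons]
        refine ⟨?_, h3.1⟩
        intro y hy
        obtain ⟨x, hx, rfl⟩ := List.mem_map.1 hy
        exact h3.2 x hx
      · intro x hx
        rcases List.mem_cons.1 hx with rfl | hx
        · exact h4
        · exact h4.trans (h3.2 x hx)

set_option maxRecDepth 1000000 in
theorem clChk : sortedFrom clW 0 = true := by decide +kernel

theorem clLen : clW.length = 3825 := by decide +kernel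

theorem clNodup : (clW.map sigF).Nodup := (sorted_spec clW 0 clChk).1.imp (fun h => ne_of_lt h)

theorem sig_eq {u v : List ℕ} (h : (cjE u).el el = (cjE v).el el) : sigF u = sigF v := by
  have h1 : ∀ p : Om, (cjE u).ev ev true p = (cjE v).ev ev true p := fun p => by
    rw [← app_eq, ← app_eq, h]
  have a1 := h1 ⟨31, (by norm_num : 31 < 2058)⟩
  have a2 := h1 ⟨1203, (by norm_num : 1203 < 2058)⟩
  have a3 := h1 ⟨1922, (by norm_num : 1922 < 2058)⟩
  unfold sigF
  simp only [frc_eq]
  exact congrArg₂ (fun a b => Nat.add a b) a1 (congrArg (Nat.mul 2058) (congrArg₂ (fun a b => Nat.add a b) a2 (congrArg (Nat.mul 2058) a3)))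

theorem hgFix : allB (fun j => Nat.beq ((hgPE j).ev ev true 0) 0) 7 = true := by decide +kernel

theorem hg_mem (j : ℕ) : (hgPE j).el el ∈ S0 := by
  by_cases hj : j < 7
  · rw [mem_S0]
    apply Fin.ext
    rw [app_eq]
    exact Nat.eq_of_beq_eq_true ((allB_iff _ _).1 hgFix j hj)
  · have h1 : hgW.getD j [] = [] := List.getD_eq_default _ _ (by
      have : hgW.length = 7 := rfl
      omega)
    have h2 : hgPE j = .one := by
      unfold hgPE
      rw [h1]
      rfl
    rw [h2]
    exact one_mem _

theorem nu_mem (u : List ℕ) : (nuE u).el el ∈ S0 := by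
  induction u with
  | nil => exact one_mem _
  | cons j u ih => exact mul_mem (hg_mem j) ih

theorem cent_conj [Finite P] : clW.length * Nat.card (S0 ⊓ Subgroup.centralizer ({d} : Set P) : Subgroup P) ≤ Nat.card S0 := by
  refine card_mul_centralizer_le S0 d _ (fun i => (nuE clW[i]).el el) (fun i => nu_mem _) ?_
  intro i j h
  have h1 : sigF clW[i] = sigF clW[j] := sig_eq h
  have h2 : (clW.map sigF)[i.1]'(by simpa using i.2) = (clW.map sigF)[j.1]'(by simpa using j.2) := by
    simpa using h1
  exact Fin.ext ((List.Nodup.getElem_inj_iff clNodup).1 h2)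

theorem fixCnt : cntAcc (fun j => Nat.beq (ev 3 true j) j) 2058 0 0 = 42 := by decide +kernel

/-- The points fixed by the involution. -/
def Fx : Set Om := {i | phi d i = i}

theorem card_Fx : Nat.card Fx ≤ 42 := by
  have h0 := fixCnt
  rw [cntAcc_spec] at h0
  have h1 : Function.Injective (fun i : Fx =>
      (⟨i.1.1, by
        refine Finset.mem_filter.2 ⟨Finset.mem_range.2 i.1.2, ?_⟩
        rw [zero_add]
        have h2 : (phi d i.1 : ℕ) = i.1.1 := congrArg Fin.val i.2
        have h3 := app_eq (.lt 3) i.1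
        have h4 : (PE.lt 3).ev ev true i.1 = i.1.1 := h3.symm.trans h2
        exact (Nat.beq_eq ▸ h4 : Nat.beq (ev 3 true i.1) i.1 = true)⟩ :
        ((Finset.range 2058).filter (fun k => Nat.beq (ev 3 true (0 + k)) (0 + k) = true) : Finset ℕ))) := by
    intro i j h
    exact Subtype.ext (Fin.ext (congrArg Subtype.val h))
  have h2 := Nat.card_le_card_of_injective _ h1
  have h3 : Nat.card ↥((Finset.range 2058).filter (fun k => Nat.beq (ev 3 true (0 + k)) (0 + k) = true)) =
      ((Finset.range 2058).filter (fun k => Nat.beq (ev 3 true (0 + k)) (0 + k) = true)).card := by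
    rw [Nat.card_eq_fintype_card, Fintype.card_coe]
  omega

theorem d_fix : phi d x0 = x0 := by
  apply Fin.ext
  have h1 := app_eq (.lt 3) x0
  exact h1.trans (by decide +kernel)

theorem cent_le [Finite P] (hP : Nat.card P = 4030387200) :
    Nat.card (Subgroup.centralizer ({d} : Set P)) ≤ 21504 := by
  have h1 := cent_conj
  rw [clLen] at h1
  have h2 := card_S0 hP
  have h3 := card_le_of_orbit phi (Subgroup.centralizer ({d} : Set P)) S0 x0 Fx (fun g hg => mem_S0.2 hg) (by
    intro c hc
    have h4 : c * d = d * c := Subgroup.mem_centralizer_singleton_iff.1 hc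
    show phi d (phi c x0) = phi c x0
    have h5 := congrArg (fun g => phi g x0) h4
    simp only [map_mul, Equiv.Perm.mul_apply, d_fix] at h5
    exact h5.symm)
  have h4 := card_Fx
  have h5 : Nat.card (S0 ⊓ Subgroup.centralizer ({d} : Set P) : Subgroup P) ≤ 512 := by omega
  exact h3.trans ((Nat.mul_le_mul h4 h5).trans (by norm_num))

/-! ### The matrices -/

/-- The vectors. -/
abbrev V : Type := Fin 5 → ZMod 2

/-- The code of a vector. -/
def enc (v : V) : ℕ := (v 0).val + 2 * (v 1).val + 4 * (v 2).val + 8 * (v 3).val + 16 * (v 4).val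

/-- The vector of a code. -/
def decV (c : ℕ) : V := ![((c % 2 : ℕ) : ZMod 2), ((c / 2 % 2 : ℕ) : ZMod 2), ((c / 4 % 2 : ℕ) : ZMod 2),
  ((c / 8 % 2 : ℕ) : ZMod 2), ((c / 16 % 2 : ℕ) : ZMod 2)]

/-- The label of a vector. -/
def lV (v : V) : Option (Fin 31) := if h : 1 ≤ enc v ∧ enc v - 1 < 31 then some ⟨enc v - 1, h.2⟩ else none

theorem lV_surj (y : Fin 31) : ∃ v, lV v = some y := by
  have h : ∀ y : Fin 31, lV (decV (y.1 + 1)) = some y := by decide +kernel
  exact ⟨_, h y⟩

/-- The action on the vectors. -/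
def actM : SL5 →* Equiv.Perm V where
  toFun A :=
    { toFun := fun x => A.1 *ᵥ x
      invFun := fun x => (A⁻¹ : SL5).1 *ᵥ x
      left_inv := fun x => by
        have h1 : (A⁻¹ : SL5).1 * A.1 = 1 := by
          rw [← Matrix.SpecialLinearGroup.coe_mul, inv_mul_cancel, Matrix.SpecialLinearGroup.coe_one]
        simp only [Matrix.mulVec_mulVec, h1, Matrix.one_mulVec]
      right_inv := fun x => by
        have h1 : A.1 * (A⁻¹ : SL5).1 = 1 := by
          rw [← Matrix.SpecialLinearGroup.coe_mul, mul_inv_cancel, Matrix.SpecialLinearGroup.coe_one]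
        simp only [Matrix.mulVec_mulVec, h1, Matrix.one_mulVec] }
  map_one' := Equiv.ext fun x => by
    show (1 : SL5).1 *ᵥ x = x
    rw [Matrix.SpecialLinearGroup.coe_one, Matrix.one_mulVec]
  map_mul' A B := Equiv.ext fun x => by
    show (A * B).1 *ᵥ x = A.1 *ᵥ (B.1 *ᵥ x)
    rw [Matrix.mulVec_mulVec, Matrix.SpecialLinearGroup.coe_mul]

theorem actM_apply (A : SL5) (x : V) : actM A x = A.1 *ᵥ x := rfl

/-- The first matrix. -/
def S1 : SL5 := ⟨mM1, by decide +kernel⟩
/-- The second matrix. -/
def S2 : SL5 := ⟨mM2, by decide +kernel⟩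

theorem lbl1 : ∀ (v : V) (y : Fin 31), lV v = some y → lV (mM1 *ᵥ v) = some (permOf 5 31 31 me1 y) := by decide +kernel
theorem lbl2 : ∀ (v : V) (y : Fin 31), lV v = some y → lV (mM2 *ᵥ v) = some (permOf 5 31 31 me2 y) := by decide +kernel

/-- The image of the matrices on the vectors. -/
theorem exists_psiM : ∃ ψ : Subgroup.closure ({S1, S2} : Set SL5) →* Equiv.Perm (Fin 31),
    ψ.range = chainGroup 5 31 31 zM := by
  show ∃ ψ : Subgroup.closure ({S1, S2} : Set SL5) →* Equiv.Perm (Fin 31),
    ψ.range = Subgroup.closure {x | ∃ e ∈ [me1, me2], permOf 5 31 31 e = x}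
  have : Finite SL5 := Subtype.finite
  refine range_of_label actM lV lV_surj _ _ ?_ ?_
  · rintro a (rfl | rfl)
    · exact ⟨_, ⟨me1, by simp, rfl⟩, fun i y hi => lbl1 i y hi⟩
    · exact ⟨_, ⟨me2, by simp, rfl⟩, fun i y hi => lbl2 i y hi⟩
  · rintro _ ⟨e, he, rfl⟩
    simp only [List.mem_cons, List.not_mem_nil, or_false] at he
    rcases he with rfl | rfl
    · exact ⟨S1, by simp, fun i y hi => lbl1 i y hi⟩
    · exact ⟨S2, by simp, fun i y hi => lbl2 i y hi⟩

theorem comm1 : mM1 * Matrix.transvection 0 1 1 = Matrix.transvection 0 1 1 * mM1 := by decide +kernel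
theorem comm2 : mM2 * Matrix.transvection 0 1 1 = Matrix.transvection 0 1 1 * mM2 := by decide +kernel

theorem le_cent_s (s : SL5) (hs : (s : M5) = Matrix.transvection 0 1 1) :
    Subgroup.closure ({S1, S2} : Set SL5) ≤ Subgroup.centralizer ({s} : Set SL5) := by
  rw [Subgroup.closure_le]
  rintro a (rfl | rfl)
  · apply Subgroup.mem_centralizer_singleton_iff.2
    apply Subtype.ext
    rw [Matrix.SpecialLinearGroup.coe_mul, Matrix.SpecialLinearGroup.coe_mul, hs]
    exact comm1
  · apply Subgroup.mem_centralizer_singleton_iff.2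
    apply Subtype.ext
    rw [Matrix.SpecialLinearGroup.coe_mul, Matrix.SpecialLinearGroup.coe_mul, hs]
    exact comm2

/-! ### The group of degree 367 -/

/-- The first part of the points. -/
def l1 (i : Fin 367) : Option (Fin 336) := if h : i.1 < 336 then some ⟨i.1, h⟩ else none
/-- The second part of the points. -/
def l2 (i : Fin 367) : Option (Fin 31) := if h : 336 ≤ i.1 then some ⟨i.1 - 336, by omega⟩ else none

theorem l1_surj (y : Fin 336) : ∃ i, l1 i = some y :=
  ⟨⟨y.1, by omega⟩, by simp [l1]⟩

theorem l2_surj (y : Fin 31) : ∃ i, l2 i = some y :=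
  ⟨⟨y.1 + 336, by omega⟩, by simp [l2]⟩

theorem val_de1 : validB 9 511 367 de1 = true := by decide +kernel
theorem val_de2 : validB 9 511 367 de2 = true := by decide +kernel
theorem val_me1 : validB 5 31 31 me1 = true := by decide +kernel
theorem val_me2 : validB 5 31 31 me2 = true := by decide +kernel

theorem part1 {e e' : Elt} (hv : validB 9 511 367 e = true) (hv' : validB 9 511 336 e' = true)
    (h : allB (fun i => Nat.beq (get 9 511 e.f i) (get 9 511 e'.f i)) 336 = true) (i : Fin 367) (y : Fin 336)
    (hi : l1 i = some y) : l1 (permOf 9 511 367 e i) = some (permOf 9 511 336 e' y) := by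
  unfold l1 at hi
  split_ifs at hi with h1
  have h2 : i.1 = y.1 := congrArg Fin.val (Option.some.inj hi)
  have h3 := Nat.eq_of_beq_eq_true ((allB_iff _ _).1 h i h1)
  have h4 : (permOf 9 511 367 e i : ℕ) = permOf 9 511 336 e' y := by
    rw [permOf_apply hv, permOf_apply hv', h3, h2]
  unfold l1
  rw [dif_pos (by rw [h4]; exact (permOf 9 511 336 e' y).2)]
  congr 1
  exact Fin.ext h4

theorem part2 {e : Elt} {e' : Elt} (hv : validB 9 511 367 e = true) (hv' : validB 5 31 31 e' = true)
    (h : allB (fun y => Nat.beq (get 9 511 e.f (Nat.add y 336)) (Nat.add 336 (get 5 31 e'.f y))) 31 = true)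
    (i : Fin 367) (y : Fin 31) (hi : l2 i = some y) : l2 (permOf 9 511 367 e i) = some (permOf 5 31 31 e' y) := by
  unfold l2 at hi
  split_ifs at hi with h1
  have h2 : i.1 - 336 = y.1 := congrArg Fin.val (Option.some.inj hi)
  have h2' : i.1 = y.1 + 336 := by omega
  have h3 := Nat.eq_of_beq_eq_true ((allB_iff _ _).1 h y y.2)
  have h4 : (permOf 9 511 367 e i : ℕ) = 336 + permOf 5 31 31 e' y := by
    rw [permOf_apply hv, permOf_apply hv', h2']
    exact h3
  unfold l2
  rw [dif_pos (by rw [h4]; omega)]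
  congr 1
  apply Fin.ext
  show (permOf 9 511 367 e i : ℕ) - 336 = _
  rw [h4]
  omega

theorem p11 : allB (fun i => Nat.beq (get 9 511 de1.f i) (get 9 511 xi1.f i)) 336 = true := by decide +kernel
theorem p12 : allB (fun i => Nat.beq (get 9 511 de2.f i) (get 9 511 xi2.f i)) 336 = true := by decide +kernel
theorem p21 : allB (fun y => Nat.beq (get 9 511 de1.f (Nat.add y 336)) (Nat.add 336 (get 5 31 me1.f y))) 31 = true := by
  decide +kernel
theorem p22 : allB (fun y => Nat.beq (get 9 511 de2.f (Nat.add y 336)) (Nat.add 336 (get 5 31 me2.f y))) 31 = true := by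
  decide +kernel

theorem exists_pi1 : ∃ ψ : chainGroup 9 511 367 zD →* Equiv.Perm (Fin 336), ψ.range = chainGroup 9 511 336 zA := by
  show ∃ ψ : Subgroup.closure {x | ∃ e ∈ [de1, de2], permOf 9 511 367 e = x} →* Equiv.Perm (Fin 336),
    ψ.range = Subgroup.closure {x | ∃ e ∈ [xi1, xi2], permOf 9 511 336 e = x}
  refine range_of_label (MonoidHom.id _) l1 l1_surj _ _ ?_ ?_
  · rintro _ ⟨e, he, rfl⟩
    simp only [List.mem_cons, List.not_mem_nil, or_false] at he
    rcases he with rfl | rfl
    · exact ⟨_, ⟨xi1, by simp, rfl⟩, part1 val_de1 val_xi1 p11⟩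
    · exact ⟨_, ⟨xi2, by simp, rfl⟩, part1 val_de2 val_xi2 p12⟩
  · rintro _ ⟨e, he, rfl⟩
    simp only [List.mem_cons, List.not_mem_nil, or_false] at he
    rcases he with rfl | rfl
    · exact ⟨_, ⟨de1, by simp, rfl⟩, part1 val_de1 val_xi1 p11⟩
    · exact ⟨_, ⟨de2, by simp, rfl⟩, part1 val_de2 val_xi2 p12⟩

theorem exists_pi2 : ∃ ψ : chainGroup 9 511 367 zD →* Equiv.Perm (Fin 31), ψ.range = chainGroup 5 31 31 zM := by
  show ∃ ψ : Subgroup.closure {x | ∃ e ∈ [de1, de2], permOf 9 511 367 e = x} →* Equiv.Perm (Fin 31),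
    ψ.range = Subgroup.closure {x | ∃ e ∈ [me1, me2], permOf 5 31 31 e = x}
  refine range_of_label (MonoidHom.id _) l2 l2_surj _ _ ?_ ?_
  · rintro _ ⟨e, he, rfl⟩
    simp only [List.mem_cons, List.not_mem_nil, or_false] at he
    rcases he with rfl | rfl
    · exact ⟨_, ⟨me1, by simp, rfl⟩, part2 val_de1 val_me1 p21⟩
    · exact ⟨_, ⟨me2, by simp, rfl⟩, part2 val_de2 val_me2 p22⟩
  · rintro _ ⟨e, he, rfl⟩
    simp only [List.mem_cons, List.not_mem_nil, or_false] at he
    rcases he with rfl | rfl
    · exact ⟨_, ⟨de1, by simp, rfl⟩, part2 val_de1 val_me1 p21⟩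
    · exact ⟨_, ⟨de2, by simp, rfl⟩, part2 val_de2 val_me2 p22⟩

/-! ### The isomorphism -/

/-- A group with a homomorphism onto a group of its order. -/
theorem card_ge_of_range {B Y : Type*} [Group B] [Finite B] (ρ : B →* Equiv.Perm Y) (Z : Subgroup (Equiv.Perm Y))
    (h : ρ.range = Z) : Nat.card Z ≤ Nat.card B := by
  rw [← h]
  exact Nat.card_le_card_of_surjective ρ.rangeRestrict ρ.rangeRestrict_surjective

/-- The centralizer of the involution in the presented group and the centralizer of a transvection. -/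
theorem main (hinj : Function.Injective phi) (hP : Nat.card P = 4030387200) (s : SL5)
    (hs : (s : M5) = Matrix.transvection 0 1 1) :
    ∃ z : P, orderOf z = 2 ∧
      Nonempty (↥(Subgroup.centralizer ({z} : Set P)) ≃* ↥(Subgroup.centralizer ({s} : Set SL5))) := by
  have : Finite P := Nat.finite_of_card_ne_zero (by rw [hP]; norm_num)
  have : Finite SL5 := Subtype.finite
  refine ⟨d, ord_d hinj, ?_⟩
  -- the presented group
  obtain ⟨ψA, hψA⟩ := exists_psiA
  have hA0le : Subgroup.closure ({X, Y} : Set P) ≤ Subgroup.centralizer ({d} : Set P) := by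
    rw [Subgroup.closure_le]
    rintro a (rfl | rfl)
    · exact Subgroup.mem_centralizer_singleton_iff.2 (hXd hinj)
    · exact Subgroup.mem_centralizer_singleton_iff.2 (hYd hinj)
  have hcA := card_ge_of_range ψA _ hψA
  rw [zACard] at hcA
  have hA0eq := Subgroup.eq_of_le_of_card_ge hA0le ((cent_le hP).trans hcA)
  have hcA' : Nat.card (Subgroup.closure ({X, Y} : Set P)) = 21504 :=
    le_antisymm ((Subgroup.card_le_of_le hA0le).trans (cent_le hP)) hcA
  obtain ⟨e1⟩ := equiv_of_range ψA _ hψA.ge (hcA'.trans zACard.symm)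
  -- the matrices
  obtain ⟨ψM, hψM⟩ := exists_psiM
  have hcM := card_ge_of_range ψM _ hψM
  rw [zMCard] at hcM
  have hM0le := le_cent_s s hs
  have hM0eq := Subgroup.eq_of_le_of_card_ge hM0le ((card_centralizer_le s hs).trans hcM)
  have hcM' : Nat.card (Subgroup.closure ({S1, S2} : Set SL5)) = 21504 :=
    le_antisymm ((Subgroup.card_le_of_le hM0le).trans (card_centralizer_le s hs)) hcM
  obtain ⟨e4⟩ := equiv_of_range ψM _ hψM.ge (hcM'.trans zMCard.symm)
  -- the group of degree 367
  obtain ⟨π1, h1⟩ := exists_pi1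
  obtain ⟨π2, h2⟩ := exists_pi2
  obtain ⟨e2⟩ := equiv_of_range π1 _ h1.ge (zDCard.trans zACard.symm)
  obtain ⟨e3⟩ := equiv_of_range π2 _ h2.ge (zDCard.trans zMCard.symm)
  exact ⟨(MulEquiv.subgroupCongr hA0eq).symm.trans
    (e1.trans (e2.symm.trans (e3.trans (e4.symm.trans (MulEquiv.subgroupCongr hM0eq)))))⟩

end Cfsg.Agent.Lib.Compute.HeCent
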